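import Cfsg.Agent.H290.Two.Main
import Cfsg.Agent.H542.EPX.Cells

/-! # The cells `Two G` of S5745, all families (helper290) -/

set_option autoImplicit false

namespace Cfsg.Agent.H290.Two

/-- **All cells `Two`.** -/
theorem two (G : Type) [Group G] [Finite G] [IsSimpleGroup G] : Cfsg.Agent.H542.EPX.Two G :=
  fun _ _ _ _ _ _ _ h => not_two h

end Cfsg.Agent.H290.Two
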