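import Cfsg.Agent.H209.EPX.Defs
import Cfsg.Agent.S1175
import Cfsg.Agent.Lib.NormalAbelian
import Cfsg.Agent.TwoFusion.StronglyEmbeddedBasic

/-!
# Extremely primitive groups: isolated normal subgroups of even order (helper290, S5745)

* `strong_of_iso` : `G` simple, `N ⊴ H < G`, `|N|` even, `z ^ g ∈ H → g ∈ H` for all `1 ≠ z ∈ N`: `G` has a strongly
  embedded subgroup (Aschbacher's criterion);
* `not_two` : a simple extremely primitive group has no stabiliser with two nonabelian minimal normal subgroups.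
-/

set_option autoImplicit false

namespace Cfsg.Agent.H290.Two

open Subgroup Cfsg.Agent.H284 Cfsg.Agent.H209.EPX

variable {G : Type*} [Group G]

theorem exists_invol {N : Subgroup G} [Finite G] (he : Even (Nat.card N)) : ∃ z ∈ N, orderOf z = 2 := by
  have : Fact (Nat.Prime 2) := ⟨Nat.prime_two⟩
  obtain ⟨z, hz⟩ := exists_prime_orderOf_dvd_card' (G := N) 2 he.two_dvd
  exact ⟨z, z.2, by rw [← hz, Subgroup.orderOf_coe]⟩

/-- the index is odd -/
theorem index_odd [Finite G] {H : Subgroup G} {z : G} (hz : orderOf z = 2) (hzH : z ∈ H)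
    (hiso : ∀ g : G, g * z * g⁻¹ ∈ H → g ∈ H) : ¬ 2 ∣ H.index := by
  have : Fact (Nat.Prime 2) := ⟨Nat.prime_two⟩
  have hp : IsPGroup 2 (Subgroup.zpowers z) := by
    apply IsPGroup.of_card (n := 1)
    rw [Nat.card_zpowers, hz, pow_one]
  have h1 := hp.card_modEq_card_fixedPoints (G ⧸ H)
  have h2 : Nat.card (MulAction.fixedPoints (Subgroup.zpowers z) (G ⧸ H)) = 1 := by
    rw [Nat.card_eq_one_iff_unique]
    refine ⟨⟨?_⟩, ⟨⟨((1 : G) : G ⧸ H), ?_⟩⟩⟩
    · have key : ∀ a : MulAction.fixedPoints (Subgroup.zpowers z) (G ⧸ H), (a : G ⧸ H) = ((1 : G) : G ⧸ H) := by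
        rintro ⟨a, ha⟩
        induction a using QuotientGroup.induction_on with
        | H x =>
          have h3 := ha ⟨z, Subgroup.mem_zpowers z⟩
          have h4 : ((z * x : G) : G ⧸ H) = (x : G ⧸ H) := h3
          rw [QuotientGroup.eq] at h4
          have h5 : x⁻¹ * z * x⁻¹⁻¹ ∈ H := by
            have h6 := H.inv_mem h4
            have e : ((z * x)⁻¹ * x)⁻¹ = x⁻¹ * z * x⁻¹⁻¹ := by group
            rwa [e] at h6
          have h6 := hiso _ h5
          change (x : G ⧸ H) = ((1 : G) : G ⧸ H)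
          rw [QuotientGroup.eq, mul_one]
          exact h6
      intro a b
      exact Subtype.ext ((key a).trans (key b).symm)
    · rintro ⟨g, hg⟩
      have h3 : g ∈ H := (Subgroup.zpowers_le.2 hzH) hg
      change ((g * 1 : G) : G ⧸ H) = ((1 : G) : G ⧸ H)
      rw [QuotientGroup.eq, mul_one, mul_one]
      exact H.inv_mem h3
  rw [h2] at h1
  intro h3
  have h4 : H.index ≡ 1 [MOD 2] := h1
  have h5 : H.index ≡ 0 [MOD 2] := (Nat.modEq_zero_iff_dvd).2 h3
  have := h4.symm.trans h5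
  exact absurd this (by decide)

/-- a 2-central involution in `N` -/
theorem exists_central [Finite G] {H N : Subgroup G} (hN : N ≤ H) (hn : ∀ g ∈ H, ∀ k ∈ N, g * k * g⁻¹ ∈ N)
    (he : Even (Nat.card N)) (hiso : ∀ z ∈ N, z ≠ 1 → ∀ g : G, g * z * g⁻¹ ∈ H → g ∈ H) :
    ∃ (S : Sylow 2 G) (z : G), z ∈ N ∧ orderOf z = 2 ∧ z ∈ S ∧ ∀ s ∈ S, Commute s z := by
  have : Fact (Nat.Prime 2) := ⟨Nat.prime_two⟩
  obtain ⟨z₀, hz₀, ho₀⟩ := exists_invol he
  have hz1 : z₀ ≠ 1 := by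
    rintro rfl
    rw [orderOf_one] at ho₀
    exact absurd ho₀ (by norm_num)
  have hodd := index_odd ho₀ (hN hz₀) (hiso z₀ hz₀ hz1)
  -- a Sylow subgroup of `H` containing `z₀`
  have hzp : IsPGroup 2 (Subgroup.zpowers (⟨z₀, hN hz₀⟩ : H)) := by
    apply IsPGroup.of_card (n := 1)
    rw [Nat.card_zpowers, Subgroup.orderOf_mk, ho₀, pow_one]
  obtain ⟨P, hP⟩ := hzp.exists_le_sylow
  have hPz : (⟨z₀, hN hz₀⟩ : H) ∈ P := hP (Subgroup.mem_zpowers _)
  have h1 : IsPGroup 2 ((P : Subgroup H).map H.subtype) := P.2.map _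
  have h2 : ¬ 2 ∣ ((P : Subgroup H).map H.subtype).index := by
    rw [Subgroup.index_map, H.range_subtype, Subgroup.ker_subtype, sup_bot_eq, Nat.Prime.dvd_mul Nat.prime_two]
    rintro (h | h)
    · exact P.not_dvd_index h
    · exact hodd h
  let S : Sylow 2 G := h1.toSylow h2
  have hS : ∀ g, g ∈ S ↔ g ∈ (P : Subgroup H).map H.subtype := fun g => Iff.rfl
  have hSH : ∀ g ∈ S, g ∈ H := by
    intro g hg
    obtain ⟨y, -, rfl⟩ := (hS g).1 hg
    exact y.2
  have hzS : z₀ ∈ S := (hS z₀).2 ⟨⟨z₀, hN hz₀⟩, hPz, rfl⟩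
  have : Group.IsNilpotent ↥(S : Subgroup G) := S.2.isNilpotent
  have hnn : (N.subgroupOf (S : Subgroup G)).Normal := by
    constructor
    intro n hn' g
    exact hn g (hSH g g.2) n hn'
  have h3 : N.subgroupOf (S : Subgroup G) ≠ ⊥ := by
    intro e
    have h4 : (⟨z₀, hzS⟩ : (S : Subgroup G)) ∈ N.subgroupOf (S : Subgroup G) := hz₀
    rw [e, Subgroup.mem_bot] at h4
    exact hz1 (Subtype.ext_iff.1 h4)
  have h4 := Cfsg.Agent.Lib.NormalAbelian.normal_inf_center_ne_bot (N.subgroupOf (S : Subgroup G)) h3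
  have hKp : IsPGroup 2 ↥(N.subgroupOf (S : Subgroup G) ⊓ Subgroup.center ↥(S : Subgroup G)) :=
    (S.2.to_subgroup _)
  have hKe : Even (Nat.card ↥(N.subgroupOf (S : Subgroup G) ⊓ Subgroup.center ↥(S : Subgroup G))) := by
    rcases hKp.card_eq_or_dvd with h5 | h5
    · exact absurd (Subgroup.card_eq_one.1 h5) h4
    · exact even_iff_two_dvd.2 h5
  obtain ⟨w, hw, hwo⟩ := exists_invol hKe
  refine ⟨S, w, hw.1, by rw [Subgroup.orderOf_coe]; exact hwo, w.2, fun s hs => ?_⟩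
  have h6 := Subgroup.mem_center_iff.1 hw.2 ⟨s, hs⟩
  exact Subtype.ext_iff.1 h6

/-- **Isolated normal subgroups of even order.** -/
theorem strong_of_iso [Finite G] [IsSimpleGroup G] {H N : Subgroup G} (hH : H ≠ ⊤) (hN : N ≤ H)
    (hn : ∀ g ∈ H, ∀ k ∈ N, g * k * g⁻¹ ∈ N) (he : Even (Nat.card N))
    (hiso : ∀ z ∈ N, z ≠ 1 → ∀ g : G, g * z * g⁻¹ ∈ H → g ∈ H) : ∃ K : Subgroup G, Cfsg.IsStronglyEmbedded K := by
  obtain ⟨S, z, hzN, hz2, hzS, hzc⟩ := exists_central hN hn he hiso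
  have hz1 : z ≠ 1 := by
    rintro rfl
    rw [orderOf_one] at hz2
    exact absurd hz2 (by norm_num)
  refine Cfsg.Agent.S1175.result H hH z hz2 (hN hzN) ⟨S, hzS, hzc⟩ (hiso z hzN hz1) ?_
  intro g hc hne
  have h1 : g * z * g⁻¹ ∈ H := by
    apply hiso z hzN hz1
    rw [← hc.eq, mul_inv_cancel_right]
    exact hN hzN
  have h2 : g ∈ H := hiso z hzN hz1 g h1
  have h3 : z * (g * z * g⁻¹) ∈ N := N.mul_mem hzN (hn g h2 z hzN)
  have hzz : z * z = 1 := by
    have := pow_orderOf_eq_one z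
    rw [hz2, pow_two] at this
    exact this
  have h4 : z * (g * z * g⁻¹) ≠ 1 := by
    intro e
    apply hne
    have h5 : g * z * g⁻¹ = z⁻¹ := eq_inv_of_mul_eq_one_right e
    rw [h5]
    exact (eq_inv_of_mul_eq_one_left hzz).symm
  intro c hcc
  apply hiso _ h3 h4
  have h6 := Subgroup.mem_centralizer_iff.1 hcc _ (Set.mem_singleton _)
  rw [← h6, mul_inv_cancel_right]
  exact hN h3

/-- odd order theorem for the factors -/
theorem even_of_nab {N : Subgroup G} [Finite G] (T : Type) [Group T] {k : ℕ} (e : N ≃* (Fin k → T))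
    (hpos : 0 < k) (hs : IsSimpleGroup T) (hnab : ∃ a b : T, a * b ≠ b * a) : Even (Nat.card N) := by
  have hfin : Finite (Fin k → T) := Finite.of_equiv _ e.toEquiv
  have hT : Finite T := Finite.of_injective (fun (t : T) (_ : Fin k) => t)
    (fun a b h => congrFun h ⟨0, hpos⟩)
  rw [Nat.card_congr e.toEquiv, Nat.card_fun, Nat.card_eq_fintype_card (α := Fin k), Fintype.card_fin]
  have h1 : Even (Nat.card T) := by
    by_contra hodd
    rw [Nat.not_even_iff_odd] at hodd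
    have hsol := Cfsg.Agent.S0205.result hodd
    obtain ⟨a, b, hab⟩ := hnab
    apply hab
    have := hs
    exact (IsSimpleGroup.comm_iff_isSolvable.2 hsol) a b
  exact (Nat.even_pow.2 ⟨h1, by omega⟩)

/-- **No extremely primitive simple group has a stabiliser with two nonabelian minimal normal subgroups.** -/
theorem not_two [Finite G] [IsSimpleGroup G] {H N N' : Subgroup G} {T : Type} [Group T] {k : ℕ}
    {e : N ≃* (Fin k → T)} (h : EPT2 H N N' e) : False := by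
  have hH : H ≠ ⊤ := h.ep.max.1
  have hisoN : ∀ z ∈ N, z ≠ 1 → ∀ g : G, g * z * g⁻¹ ∈ H → g ∈ H := by
    intro z hz hz1 g hg
    by_contra hgH
    have h1 : g⁻¹ ∉ H := fun e => hgH (by have := H.inv_mem e; rwa [inv_inv] at this)
    have h2 := h.ep.comm_inf h.m1.le h.m1.nrm h.m2.le h.m2.nrm h.m2.ne h.comm h1
    have h3 : z ∈ N ⊓ cj g⁻¹ H := ⟨hz, mem_cj.2 (by rwa [inv_inv])⟩
    rw [h2, Subgroup.mem_bot] at h3
    exact hz1 h3
  have hev : Even (Nat.card N) := even_of_nab T e h.pos h.simple h.nab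
  have hcard := h.ep.card_comm h.m1.le h.m1.nrm h.m1.ne h.m2.le h.m2.nrm h.m2.ne h.comm hH
  obtain ⟨K, hK⟩ := strong_of_iso hH h.m1.le h.m1.nrm hev hisoN
  obtain ⟨t, ht, ht2⟩ := exists_invol hev
  obtain ⟨s, hs, hs2⟩ := exists_invol (N := N') (by rw [← hcard]; exact hev)
  obtain ⟨c, hc⟩ := isConj_iff.1 (Cfsg.Agent.TwoFusion.StronglyEmbeddedBasic.isConj_of_involutions hK t s ht2 hs2)
  have ht1 : t ≠ 1 := by
    rintro rfl
    rw [orderOf_one] at ht2
    exact absurd ht2 (by norm_num)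
  have hcH : c ∈ H := hisoN t ht ht1 c (by rw [hc]; exact h.m2.le hs)
  have hsN : s ∈ N := by rw [← hc]; exact h.m1.nrm c hcH t ht
  -- `N ⊓ N'` is trivial
  have h5 : N ⊓ N' = ⊥ := by
    rcases h.m1.min (N ⊓ N') inf_le_left ⟨inf_le_left.trans h.m1.le, fun g hg x hx =>
      ⟨h.m1.nrm g hg x hx.1, h.m2.nrm g hg x hx.2⟩⟩ with h6 | h6
    · exact h6
    · exfalso
      obtain ⟨a, ha, b, hb, hab⟩ := h.nab'
      have h7 : N ≤ N' := by rw [← h6]; exact inf_le_right
      have h8 : N = N' := Subgroup.eq_of_le_of_card_ge h7 hcard.ge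
      exact hab (h.comm a (h8 ▸ ha) b hb)
  have h6 : s ∈ N ⊓ N' := ⟨hsN, hs⟩
  rw [h5, Subgroup.mem_bot] at h6
  rw [h6, orderOf_one] at hs2
  exact absurd hs2 (by norm_num)

end Cfsg.Agent.H290.Two
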